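import Mathlib

/-!
# Transport of the class cover and of the rank lists along an isomorphism of subgroups (helper240, row F4 of S2491)
-/

set_option autoImplicit false

namespace Cfsg.Agent.H240.F4

universe u v

variable {G : Type u} {H : Type v} [Group G] [Group H] {A : Subgroup G} {B : Subgroup H}

/-- **transport of the class cover** -/
theorem cover_transport (e : A ≃* B) {n : ℕ}
    (hc : ∀ {x l : H}, x ∈ B → orderOf x = n → l ∈ B → l ≠ 1 →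
      ∃ a ∈ B, ∃ b ∈ B, l = a * x * a⁻¹ * (b * x⁻¹ * b⁻¹))
    {x : G} (hx : x ∈ A) (ho : orderOf x = n) (l : G) (hl : l ∈ A) (hl1 : l ≠ 1) :
    ∃ a ∈ A, ∃ b ∈ A, l = a * x * a⁻¹ * (b * x⁻¹ * b⁻¹) := by
  have h1 : orderOf ((e ⟨x, hx⟩ : B) : H) = n := by
    rw [Subgroup.orderOf_coe, MulEquiv.orderOf_eq e, Subgroup.orderOf_mk]
    exact ho
  have h2 : ((e ⟨l, hl⟩ : B) : H) ≠ 1 := by
    intro h
    apply hl1
    have h3 : e ⟨l, hl⟩ = 1 := Subtype.ext h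
    rw [map_eq_one_iff e e.injective] at h3
    exact congrArg Subtype.val h3
  obtain ⟨a, ha, b, hb, h⟩ := hc (e ⟨x, hx⟩).2 h1 (e ⟨l, hl⟩).2 h2
  refine ⟨e.symm ⟨a, ha⟩, (e.symm ⟨a, ha⟩).2, e.symm ⟨b, hb⟩, (e.symm ⟨b, hb⟩).2, ?_⟩
  have h4 : e ⟨l, hl⟩ = ⟨a, ha⟩ * e ⟨x, hx⟩ * (⟨a, ha⟩)⁻¹ * (⟨b, hb⟩ * (e ⟨x, hx⟩)⁻¹ * (⟨b, hb⟩)⁻¹) :=
    Subtype.ext h
  have h5 := congrArg e.symm h4
  simp only [map_mul, map_inv, MulEquiv.symm_apply_apply] at h5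
  exact congrArg Subtype.val h5

theorem prod_transport (e : A ≃* B) : ∀ (L : List H) (_ : ∀ t ∈ L, t ∈ B), ∃ L' : List G, L'.length = L.length ∧
    (∀ t' ∈ L', ∃ h' : t' ∈ A, ∃ t ∈ L, ((e ⟨t', h'⟩ : B) : H) = t) ∧
    ∃ h' : L'.prod ∈ A, ((e ⟨L'.prod, h'⟩ : B) : H) = L.prod := by
  intro L
  induction L with
  | nil =>
    intro _
    refine ⟨[], rfl, by simp, ?_⟩
    refine ⟨one_mem _, ?_⟩
    have : (⟨([] : List G).prod, one_mem _⟩ : A) = 1 := rfl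
    rw [this, map_one]
    rfl
  | cons s L ih =>
    intro hL
    obtain ⟨L', h1, h2, h3, h4⟩ := ih fun t ht => hL t (List.mem_cons_of_mem _ ht)
    have hs : s ∈ B := hL s List.mem_cons_self
    refine ⟨(e.symm ⟨s, hs⟩ : A) :: L', by simp [h1], ?_, ?_⟩
    · intro t' ht'
      rcases List.mem_cons.1 ht' with rfl | ht'
      · refine ⟨(e.symm ⟨s, hs⟩).2, s, List.mem_cons_self, ?_⟩
        have : (⟨((e.symm ⟨s, hs⟩ : A) : G), (e.symm ⟨s, hs⟩).2⟩ : A) = e.symm ⟨s, hs⟩ := rfl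
        rw [this, MulEquiv.apply_symm_apply]
      · obtain ⟨h', t, ht, h5⟩ := h2 t' ht'
        exact ⟨h', t, List.mem_cons_of_mem _ ht, h5⟩
    · have h5 : ((e.symm ⟨s, hs⟩ : A) :: L' : List G).prod ∈ A := by
        rw [List.prod_cons]
        exact mul_mem (e.symm ⟨s, hs⟩).2 h3
      refine ⟨h5, ?_⟩
      have h6 : (⟨((e.symm ⟨s, hs⟩ : A) :: L' : List G).prod, h5⟩ : A) = e.symm ⟨s, hs⟩ * ⟨L'.prod, h3⟩ :=
        Subtype.ext List.prod_cons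
      rw [h6, map_mul, MulEquiv.apply_symm_apply, List.prod_cons, Subgroup.coe_mul, h4]

/-- **transport of the rank lists** -/
theorem rank_transport (e : A ≃* B) {n m : ℕ}
    (hr : ∀ {x l : H}, x ∈ B → orderOf x = n → l ∈ B → l ≠ 1 →
      ∃ L : List H, L.length ≤ m ∧ (∀ t ∈ L, ∃ k ∈ B, t = k * l * k⁻¹) ∧ ∃ k ∈ B, L.prod = k * x * k⁻¹)
    {x : G} (hx : x ∈ A) (ho : orderOf x = n) (l : G) (hl : l ∈ A) (hl1 : l ≠ 1) :
    ∃ L : List G, L.length ≤ m ∧ (∀ t ∈ L, ∃ k ∈ A, t = k * l * k⁻¹ ∨ t = k * l⁻¹ * k⁻¹) ∧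
      ∃ k ∈ A, L.prod = k * x * k⁻¹ := by
  have h1 : orderOf ((e ⟨x, hx⟩ : B) : H) = n := by
    rw [Subgroup.orderOf_coe, MulEquiv.orderOf_eq e, Subgroup.orderOf_mk]
    exact ho
  have h2 : ((e ⟨l, hl⟩ : B) : H) ≠ 1 := by
    intro h
    apply hl1
    have h3 : e ⟨l, hl⟩ = 1 := Subtype.ext h
    rw [map_eq_one_iff e e.injective] at h3
    exact congrArg Subtype.val h3
  obtain ⟨L, h3, h4, k, hk, h5⟩ := hr (e ⟨x, hx⟩).2 h1 (e ⟨l, hl⟩).2 h2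
  obtain ⟨L', h6, h7, h8, h9⟩ := prod_transport e L fun t ht => by
    obtain ⟨k, hk, rfl⟩ := h4 t ht
    exact mul_mem (mul_mem hk (e ⟨l, hl⟩).2) (inv_mem hk)
  refine ⟨L', h6.le.trans h3, ?_, e.symm ⟨k, hk⟩, (e.symm ⟨k, hk⟩).2, ?_⟩
  · intro t' ht'
    obtain ⟨h', t, ht, h10⟩ := h7 t' ht'
    obtain ⟨k', hk', h11⟩ := h4 t ht
    refine ⟨e.symm ⟨k', hk'⟩, (e.symm ⟨k', hk'⟩).2, Or.inl ?_⟩
    have h12 : e ⟨t', h'⟩ = ⟨k', hk'⟩ * e ⟨l, hl⟩ * (⟨k', hk'⟩)⁻¹ := Subtype.ext (by rw [h10, h11]; rfl)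
    have h13 := congrArg e.symm h12
    simp only [map_mul, map_inv, MulEquiv.symm_apply_apply] at h13
    exact congrArg Subtype.val h13
  · have h12 : e ⟨L'.prod, h8⟩ = ⟨k, hk⟩ * e ⟨x, hx⟩ * (⟨k, hk⟩)⁻¹ := Subtype.ext (by rw [h9, h5]; rfl)
    have h13 := congrArg e.symm h12
    simp only [map_mul, map_inv, MulEquiv.symm_apply_apply] at h13
    exact congrArg Subtype.val h13

end Cfsg.Agent.H240.F4
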